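import Cfsg.Agent.FusionQd.QdPair
import Cfsg.Agent.FusionModel.LocalModel
import Cfsg.Agent.S5076

/-!
# `Qd(p)`-freeness of the fusion system of a group
-/

set_option autoImplicit false
set_option linter.all false

open Cfsg Cfsg.FusionSystem Cfsg.Agent.FusionSys Cfsg.Agent.FusionModel

namespace Cfsg.Agent.FusionQd

universe u

/-- A fully normalized centric subgroup has a local model. -/
theorem exists_local_model {Ω : Type u} [Group Ω] {S : Subgroup Ω} [Finite S] {p : ℕ} [Fact p.Prime]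
    (hS : IsPGroup p S) {F : FusionSystem S} (hF : F.IsSaturated p) {R : Subgroup Ω}
    (hR : F.IsFullyNormalized R) (hRc : F.IsCentric R) :
    ∃ (L : Type u) (_ : Group L) (ι : normalizerIn S R →* L),
      (FusionAux.normSys F R hR.1).IsModel p L ι := by
  have hRS := hR.1
  set N := FusionAux.normSys F R hRS with hN
  have hNs : N.IsSaturated p := normSys_saturated hS hF hR
  have hNp : IsPGroup p (normalizerIn S R) := hS.to_le (normalizerIn_le R)
  have hRn : N.IsNormal R := by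
    refine ⟨le_normalizerIn hRS, fun P φ hφ => ?_⟩
    obtain ⟨hφF, hP, hφN, ψ, hψ, hψe, hψR⟩ := hφ
    have hval := FusionAux.ext_image_le (R := normalizerIn S R) hψR
      (fun x => by rw [hψe]; exact hφN x)
    have hsup : normalizerIn S R ⊔ R = normalizerIn S R := sup_eq_left.2 (le_normalizerIn hRS)
    have hle : P ⊔ R ⊔ R ≤ P ⊔ R := (sup_le le_rfl le_sup_right)
    refine ⟨ψ, ⟨hψ, sup_le hP (le_normalizerIn hRS), fun x => (by have h := hval x; rwa [hsup] at h),
      restr hle ψ, restr_mem F hle hψ, fun _ => rfl, le_antisymm ?_ ?_⟩, hψe, hψR⟩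
    · intro y hy
      obtain ⟨x, hx, rfl⟩ := (mem_map_subgroupOf _).1 hy
      exact FusionAux.apply_mem_of_map_eq hψR hx
    · intro y hy
      obtain ⟨x, hx, rfl⟩ := FusionAux.exists_of_map_eq hψR hy
      exact (mem_map_subgroupOf _).2 ⟨⟨x, Subgroup.mem_sup_left x.2⟩, hx, rfl⟩
  have hRN : N.IsCentric R := by
    refine ⟨le_normalizerIn hRS, fun Q hQ => ?_⟩
    obtain ⟨φ, hφ, hr⟩ := hQ
    intro x hx
    exact hRc.2 Q ⟨φ, hφ.1, hr⟩ ⟨hx.1.1, hx.2⟩
  exact exists_model_of_normal_centric hNp hNs hRn hRN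

variable {G : Type u} [Group G] [Finite G] {p : ℕ} [Fact p.Prime]

theorem qd_free_group_iff (hp : p ≠ 2) (P : Sylow p G) :
    (groupFusionSystem (P : Subgroup G)).IsSectionFree p ↥(Cfsg.qd p) ↔
      ¬ Involves ↥(Cfsg.qd p) G := by
  set S := (P : Subgroup G) with hSdef
  set F := groupFusionSystem S with hFdef
  have hF : F.IsSaturated p := Cfsg.Agent.S5076.result p P
  constructor
  · intro hfree hinv
    obtain ⟨R, hRp, hR, hcent⟩ := exists_centric_qdPair (p := p) (exists_qdPair_of_involves hinv)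
    obtain ⟨T, hT⟩ := hRp.exists_le_sylow
    obtain ⟨g, hg⟩ := MulAction.exists_smul_eq G T P
    set R1 := R.map (MulAut.conj g).toMonoidHom with hR1
    have hR1S : R1 ≤ S := by
      rw [hR1, hSdef, ← hg, Sylow.coe_subgroup_smul]
      exact Subgroup.map_mono hT
    obtain ⟨Q, hQc, hQ⟩ := exists_fullyNormalized F hR1S
    -- every conjugate of `R1` is a group conjugate of `R`
    have hconj : ∀ Q', F.IsConj R1 Q' → ∃ k : G, R.map (MulAut.conj k).toMonoidHom = Q' := by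
      rintro Q' ⟨φ, ⟨-, -, k, hk⟩, rfl⟩
      refine ⟨k * g, ?_⟩
      ext y
      constructor
      · rintro ⟨x, hx, rfl⟩
        refine ⟨⟨g * x * g⁻¹, ⟨x, hx, rfl⟩⟩, ?_⟩
        rw [hk]
        show k * (g * x * g⁻¹) * k⁻¹ = k * g * x * (k * g)⁻¹
        group
      · rintro ⟨⟨_, x, hx, rfl⟩, rfl⟩
        refine ⟨x, hx, ?_⟩
        rw [hk]
        show k * g * x * (k * g)⁻¹ = k * (g * x * g⁻¹) * k⁻¹
        group
    have hQcent : F.IsCentric Q := by
      refine ⟨hQ.1, fun Q' hQ' => ?_⟩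
      obtain ⟨k, rfl⟩ := hconj Q' (isConj_trans hQc hQ')
      rintro x ⟨hxS, hxc⟩
      refine ⟨k⁻¹ * x * k, hcent _ ?_ ?_, by
        show k * (k⁻¹ * x * k) * k⁻¹ = x
        group⟩
      · rw [Subgroup.mem_centralizer_iff]
        intro r hr
        have := Subgroup.mem_centralizer_iff.1 hxc (k * r * k⁻¹) ⟨r, hr, rfl⟩
        calc r * (k⁻¹ * x * k) = k⁻¹ * ((k * r * k⁻¹) * x) * k := by group
          _ = k⁻¹ * (x * (k * r * k⁻¹)) * k := by rw [this]
          _ = k⁻¹ * x * k * r := by group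
      · obtain ⟨m, hm⟩ := P.isPGroup' ⟨x, hxS⟩
        refine ⟨m, ?_⟩
        have hm' : x ^ p ^ m = 1 := congrArg Subtype.val hm
        rw [show k⁻¹ * x * k = k⁻¹ * x * k⁻¹⁻¹ by group, conj_pow, hm', mul_one, mul_inv_cancel]
    obtain ⟨k, hk⟩ := hconj Q hQc
    obtain ⟨L, hL, ι, hM⟩ := exists_local_model P.isPGroup' hF hQ hQcent
    refine hfree Q hQ hQcent _ (FusionAux.normSys_spec F Q hQ.1) L ι hM ?_
    haveI : Finite L := hM.1
    -- the pair on `Q`
    let φ : R →* L := ι.comp (((MulAut.conj k).toMonoidHom.comp R.subtype).codRestrict _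
      fun x => le_normalizerIn hQ.1 (hk.le ⟨x, x.2, rfl⟩))
    have hφ : Function.Injective φ := fun a b h => Subtype.ext
      ((MulAut.conj k).injective (congrArg Subtype.val (hM.2.1.1 h)))
    refine QdPair.involves hp (hR.transfer φ hφ fun x hx => ?_)
    set α : MulAut Q := Q.normalizerMonoidHom ⟨k * x * k⁻¹, by
      refine Stability.mem_normalizer_of_conj_mem ?_
      rw [← hk]
      rintro _ ⟨r, hr, rfl⟩
      refine ⟨x * r * x⁻¹, (Subgroup.mem_normalizer_iff.1 hx r).1 hr, ?_⟩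
      show k * (x * r * x⁻¹) * k⁻¹ = k * x * k⁻¹ * (k * r * k⁻¹) * (k * x * k⁻¹)⁻¹
      group⟩ with hα
    have hαF : α ∈ F.autGroup Q := Subgroup.subset_closure
      ⟨hQ.1, fun y => hQ.1 (α y).2, k * x * k⁻¹, fun y => rfl⟩
    rw [← FusionAux.normalizerSystem_autGroup_self (FusionAux.normSys_spec F Q hQ.1) hQ.1] at hαF
    obtain ⟨g', hg', -⟩ := hom_conj hM.2.1
      (autGroup_mem_hom _ (le_normalizerIn hQ.1) hαF)
    refine ⟨g', fun r => ?_⟩
    refine Eq.trans (congrArg ι (Subtype.ext ?_)) (hg' ⟨k * r * k⁻¹, hk.le ⟨r, r.2, rfl⟩⟩)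
    show k * (x * r * x⁻¹) * k⁻¹ = k * x * k⁻¹ * (k * r * k⁻¹) * (k * x * k⁻¹)⁻¹
    group
  · intro hni Q hQ hQc N hN L _ ι hM hinv
    refine hni ?_
    haveI : Finite L := hM.1
    obtain ⟨R, hRp, hR⟩ := exists_qdPair_of_involves (p := p) hinv
    obtain ⟨hreal, ⟨T0, hT0⟩⟩ := And.intro hM.2.1 hM.2.2.1
    obtain ⟨T, hT⟩ := hRp.exists_le_sylow
    obtain ⟨g, hg⟩ := MulAction.exists_smul_eq L T T0
    have hle : ∀ r : R, g * (r : L) * g⁻¹ ∈ ι.range := fun r => by
      rw [← hT0, ← hg, Sylow.coe_subgroup_smul]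
      exact ⟨r, hT r.2, rfl⟩
    let e := MonoidHom.ofInjective hreal.1
    let φ : R →* G := (normalizerIn S Q).subtype.comp (e.symm.toMonoidHom.comp
      (((MulAut.conj g).toMonoidHom.comp R.subtype).codRestrict ι.range hle))
    have hφv : ∀ r : R, ι (e.symm ⟨_, hle r⟩) = g * (r : L) * g⁻¹ := fun r =>
      congrArg Subtype.val (e.apply_symm_apply ⟨_, hle r⟩)
    have hφ : Function.Injective φ := by
      intro a b h
      have h' := congrArg ι (Subtype.ext h : e.symm ⟨_, hle a⟩ = e.symm ⟨_, hle b⟩)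
      rw [hφv, hφv] at h'
      exact Subtype.ext (mul_left_cancel (mul_right_cancel h'))
    refine QdPair.involves hp (hR.transfer φ hφ fun x hx => ?_)
    set A := φ.range with hA
    have hAT : A ≤ normalizerIn S Q := by
      rintro _ ⟨r, rfl⟩
      exact Subtype.coe_prop _
    obtain ⟨ψ, hψ, hψe⟩ := exists_hom_of_conj hreal hAT (g := g * x * g⁻¹) (by
      intro y hy
      obtain ⟨w, ⟨r, hr⟩, rfl⟩ := mem_img.1 hy
      have e1 : w = e.symm ⟨_, hle r⟩ := Subtype.ext hr.symm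
      rw [e1, hφv]
      have := hle ⟨x * r * x⁻¹, (Subgroup.mem_normalizer_iff.1 hx r).1 r.2⟩
      convert this using 1
      group)
    obtain ⟨g', hg'⟩ := ((hN A ▸ hψ : ψ ∈ F.normalizerHom Q A)).1.2.2
    refine ⟨g', fun r => ?_⟩
    rw [← hg' ⟨φ r, r, rfl⟩]
    have h1 := hψe ⟨φ r, r, rfl⟩ (map_mem_S N hψ _)
    have h2 := hφv ⟨x * r * x⁻¹, (Subgroup.mem_normalizer_iff.1 hx r).1 r.2⟩
    have h3 : ι (e.symm ⟨_, hle ⟨x * r * x⁻¹, (Subgroup.mem_normalizer_iff.1 hx r).1 r.2⟩⟩) =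
        ι ⟨ψ ⟨φ r, r, rfl⟩, map_mem_S N hψ _⟩ := by
      rw [h1, h2]
      show g * (x * r * x⁻¹) * g⁻¹ = g * x * g⁻¹ * ι (e.symm ⟨_, hle r⟩) * (g * x * g⁻¹)⁻¹
      rw [hφv r]
      group
    exact congrArg Subtype.val (hreal.1 h3)

end Cfsg.Agent.FusionQd
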