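import Cfsg.Agent.Stability.Action
import Cfsg.Agent.EvenLocal.Involved

/-!
# Natural actions of `SL(2, p)` on sections of `p`-subgroups and the section `Qd(p)`
-/

set_option autoImplicit false
set_option linter.all false

open Cfsg

namespace Cfsg.Agent.FusionQd

open Cfsg.Agent.Stability

universe u v

variable {G : Type u} [Group G] {p : ℕ} [Fact p.Prime]

/-- `SL(2, p)` acts naturally, through `N(R)`, on some section of `R`. -/
def QdPair (p : ℕ) (R : Subgroup G) : Prop :=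
  ∃ (W0 : Subgroup G) (a b u l : G), W0 ≤ R ∧ a ∈ R ∧ b ∈ R ∧
    a ∈ Subgroup.normalizer (W0 : Set G) ∧ b ∈ Subgroup.normalizer (W0 : Set G) ∧
    u ∈ Subgroup.normalizer (R : Set G) ∧ u ∈ Subgroup.normalizer (W0 : Set G) ∧
    l ∈ Subgroup.normalizer (R : Set G) ∧ l ∈ Subgroup.normalizer (W0 : Set G) ∧
    a * b * a⁻¹ * b⁻¹ ∈ W0 ∧ a ^ p ∈ W0 ∧ b ^ p ∈ W0 ∧
    u * a * u⁻¹ * a⁻¹ ∈ W0 ∧ u * b * u⁻¹ * (a * b)⁻¹ ∈ W0 ∧
    l * a * l⁻¹ * (a * b)⁻¹ ∈ W0 ∧ l * b * l⁻¹ * b⁻¹ ∈ W0 ∧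
    ∀ i j : ℤ, a ^ i * b ^ j ∈ W0 → (p : ℤ) ∣ i ∧ (p : ℤ) ∣ j

theorem mem_normalizer_map {G' : Type v} [Group G'] [Finite G'] {R : Subgroup G} (φ : R →* G')
    {W : Subgroup G} {g : G} (hgR : g ∈ Subgroup.normalizer (R : Set G))
    (hgW : g ∈ Subgroup.normalizer (W : Set G)) {g' : G'}
    (h : ∀ x : R, φ ⟨g * x * g⁻¹, (Subgroup.mem_normalizer_iff.1 hgR x).1 x.2⟩ = g' * φ x * g'⁻¹) :
    g' ∈ Subgroup.normalizer ((W.subgroupOf R).map φ : Set G') := by
  refine Stability.mem_normalizer_of_conj_mem ?_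
  rintro _ ⟨x, hx, rfl⟩
  rw [← h x]
  exact Subgroup.mem_map_of_mem φ ((Subgroup.mem_normalizer_iff.1 hgW x).1 hx)

/-- Natural pairs pass along injective maps compatible with the action of the normalizer. -/
theorem QdPair.transfer {G' : Type v} [Group G'] [Finite G'] {R : Subgroup G} (φ : R →* G')
    (hφ : Function.Injective φ)
    (h : ∀ g, ∀ hg : g ∈ Subgroup.normalizer (R : Set G), ∃ g' : G', ∀ x : R,
      φ ⟨g * x * g⁻¹, (Subgroup.mem_normalizer_iff.1 hg x).1 x.2⟩ = g' * φ x * g'⁻¹)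
    (hR : QdPair p R) : QdPair p φ.range := by
  obtain ⟨W0, a, b, u, l, hW, ha, hb, haW, hbW, huR, huW, hlR, hlW, c1, c2, c3, c4, c5, c6, c7, hind⟩ :=
    hR
  have hN : ∀ {g g' : G} (hg : g ∈ Subgroup.normalizer (R : Set G)) {g'' : G'},
      (∀ x : R, φ ⟨g * x * g⁻¹, (Subgroup.mem_normalizer_iff.1 hg x).1 x.2⟩ = g'' * φ x * g''⁻¹) →
      g'' ∈ Subgroup.normalizer (φ.range : Set G') := by
    intro g _ hg g'' hh
    refine Stability.mem_normalizer_of_conj_mem ?_
    rintro _ ⟨x, rfl⟩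
    exact ⟨_, hh x⟩
  obtain ⟨u', hu'⟩ := h u huR
  obtain ⟨l', hl'⟩ := h l hlR
  set W' := (W0.subgroupOf R).map φ with hW'
  have hm : ∀ x : R, φ x ∈ W' ↔ (x : G) ∈ W0 := fun x => by
    rw [hW', Subgroup.mem_map_iff_mem hφ, Subgroup.mem_subgroupOf]
  refine ⟨W', φ ⟨a, ha⟩, φ ⟨b, hb⟩, u', l', Subgroup.map_le_range _ _, ⟨_, rfl⟩, ⟨_, rfl⟩,
    mem_normalizer_map φ (Subgroup.le_normalizer ha) haW fun x => ?_,
    mem_normalizer_map φ (Subgroup.le_normalizer hb) hbW fun x => ?_,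
    hN (g' := u) huR hu', mem_normalizer_map φ huR huW hu', hN (g' := l) hlR hl',
    mem_normalizer_map φ hlR hlW hl', ?_, ?_, ?_, ?_, ?_, ?_, ?_, ?_⟩
  · rw [← map_inv, ← map_mul, ← map_mul]; rfl
  · rw [← map_inv, ← map_mul, ← map_mul]; rfl
  · rw [← map_inv, ← map_inv, ← map_mul, ← map_mul, ← map_mul, hm]; exact c1
  · rw [← map_pow, hm]; exact c2
  · rw [← map_pow, hm]; exact c3
  · rw [← hu', ← map_inv, ← map_mul, hm]; exact c4
  · rw [← hu', ← map_mul, ← map_inv, ← map_mul, hm]; exact c5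
  · rw [← hl', ← map_mul, ← map_inv, ← map_mul, hm]; exact c6
  · rw [← hl', ← map_inv, ← map_mul, hm]; exact c7
  · intro i j hij
    rw [← map_zpow, ← map_zpow, ← map_mul, hm] at hij
    exact hind i j (by simpa using hij)

/-- A natural pair gives the section `Qd(p)`. -/
theorem QdPair.involves [Finite G] (hp : p ≠ 2) {R : Subgroup G} (h : QdPair p R) :
    Involves ↥(Cfsg.qd p) G := by
  obtain ⟨W0, a, b, u, l, hW, ha, hb, haW, hbW, huR, huW, hlR, hlW, c1, c2, c3, c4, c5, c6, c7, hind⟩ :=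
    h
  set N := Subgroup.normalizer (W0 : Set G) with hN
  haveI : (W0.subgroupOf N).Normal := inferInstance
  set π := QuotientGroup.mk' (W0.subgroupOf N) with hπ
  set A := π ⟨a, haW⟩ with hA
  set B := π ⟨b, hbW⟩ with hB
  set U := π ⟨u, huW⟩ with hU
  set L := π ⟨l, hlW⟩ with hL
  have hone : ∀ x : N, π x = 1 ↔ (x : G) ∈ W0 := fun x => QuotientGroup.eq_one_iff x
  have hAB : A * B = B * A := by
    rw [← mul_inv_eq_iff_eq_mul, ← mul_inv_eq_one, hA, hB, ← map_inv, ← map_inv, ← map_mul,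
      ← map_mul, ← map_mul, hone]
    exact c1
  set V := Subgroup.closure ({A, B} : Set (N ⧸ W0.subgroupOf N)) with hV
  have hVc : IsMulCommutative V := by
    refine Subgroup.isMulCommutative_closure ?_
    rintro x (rfl | rfl) y (rfl | rfl)
    exacts [rfl, hAB, hAB.symm, rfl]
  have hVe : Cfsg.IsElementaryAbelian p V := by
    refine ⟨hVc, fun x hx => ?_⟩
    induction hx using Subgroup.closure_induction with
    | mem x hx =>
      rcases hx with rfl | rfl
      · rw [hA, ← map_pow, hone]; exact c2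
      · rw [hB, ← map_pow, hone]; exact c3
    | one => exact one_pow p
    | mul x y hx hy h1 h2 =>
      rw [(show Commute x y from congrArg Subtype.val
        (hVc.is_comm.comm ⟨x, hx⟩ ⟨y, hy⟩)).mul_pow, h1, h2, one_mul]
    | inv x _ h1 => rw [inv_pow, h1, inv_one]
  have e1 : U * A * U⁻¹ = A := by
    rw [← mul_inv_eq_one, hA, hU, ← map_inv, ← map_inv, ← map_mul, ← map_mul, ← map_mul, hone]
    exact c4
  have e2 : U * B * U⁻¹ = A * B := by
    rw [← mul_inv_eq_one, hA, hB, hU, ← map_mul π ⟨a, haW⟩, ← map_inv, ← map_inv, ← map_mul,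
      ← map_mul, ← map_mul, hone]
    exact c5
  have e3 : L * A * L⁻¹ = A * B := by
    rw [← mul_inv_eq_one, hA, hB, hL, ← map_mul π ⟨a, haW⟩, ← map_inv, ← map_inv, ← map_mul,
      ← map_mul, ← map_mul, hone]
    exact c6
  have e4 : L * B * L⁻¹ = B := by
    rw [← mul_inv_eq_one, hB, hL, ← map_inv, ← map_inv, ← map_mul, ← map_mul, ← map_mul, hone]
    exact c7
  have hAV : A ∈ V := Subgroup.subset_closure (Or.inl rfl)
  have hBV : B ∈ V := Subgroup.subset_closure (Or.inr rfl)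
  have hnv : ∀ g : N ⧸ W0.subgroupOf N, g * A * g⁻¹ ∈ V → g * B * g⁻¹ ∈ V →
      g ∈ Subgroup.normalizer (V : Set (N ⧸ W0.subgroupOf N)) := by
    intro g h1 h2
    refine Stability.mem_normalizer_of_conj_mem ?_
    intro x hx
    induction hx using Subgroup.closure_induction with
    | mem x hx =>
      rcases hx with rfl | rfl
      exacts [h1, h2]
    | one => rw [mul_one, mul_inv_cancel]; exact one_mem _
    | mul x y _ _ h1 h2 => rw [← conj_mul]; exact mul_mem h1 h2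
    | inv x _ h1 => rw [← conj_inv]; exact inv_mem h1
  have hUV := hnv U (by rw [e1]; exact hAV) (by rw [e2]; exact mul_mem hAV hBV)
  have hLV := hnv L (by rw [e3]; exact mul_mem hAV hBV) (by rw [e4]; exact hBV)
  have hbot : ∀ g : N ⧸ W0.subgroupOf N,
      g ∈ Subgroup.normalizer ((⊥ : Subgroup (N ⧸ W0.subgroupOf N)) : Set (N ⧸ W0.subgroupOf N)) :=
    fun g => by rw [Subgroup.normalizer_eq_top]; exact Subgroup.mem_top g
  have hpair : HasNaturalPair p (Subgroup.normalizer (V : Set (N ⧸ W0.subgroupOf N))) V := by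
    refine ⟨⊥, A, B, U, L, bot_le, hAV, hBV, hUV, hLV, hbot U, hbot L, ?_, ?_, ?_, ?_, ?_⟩
    · rw [e1, mul_inv_cancel]; exact one_mem _
    · rw [e2, mul_inv_cancel]; exact one_mem _
    · rw [e3, mul_inv_cancel]; exact one_mem _
    · rw [e4, mul_inv_cancel]; exact one_mem _
    · intro i j hij
      rw [Subgroup.mem_bot, hA, hB, ← map_zpow, ← map_zpow, ← map_mul, hone] at hij
      exact hind i j (by simpa using hij)
  obtain ⟨K, M, hM, e⟩ := hpair.qd_section hVe le_rfl hp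
  exact EvenLocal.involves_of_involves_image π (QuotientGroup.mk'_surjective _) ⟨K, M, hM, e⟩

theorem aff_apply_inj {v w : Fin 2 → ZMod p} {A B : SL2.S2 (ZMod p)} (h : aff v A = aff w B) :
    v = w := by
  funext i
  have h0 := congrArg (fun M : Matrix.SpecialLinearGroup (Fin 3) (ZMod p) =>
    (M : Matrix (Fin 3) (Fin 3) (ZMod p)) 0 2) h
  have h1 := congrArg (fun M : Matrix.SpecialLinearGroup (Fin 3) (ZMod p) =>
    (M : Matrix (Fin 3) (Fin 3) (ZMod p)) 1 2) h
  simp [aff] at h0 h1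
  fin_cases i
  exacts [h0, h1]

theorem translation_mul (v w : Fin 2 → ZMod p) : aff v 1 * aff w 1 = aff (v + w) 1 := by
  rw [aff_mul]; simp

theorem translation_inv (v : Fin 2 → ZMod p) : (aff v 1)⁻¹ = aff (-v) 1 :=
  inv_eq_of_mul_eq_one_right (by rw [translation_mul, add_neg_cancel, aff_one])

theorem translation_zpow (v : Fin 2 → ZMod p) (i : ℤ) : aff v 1 ^ i = aff ((i : ZMod p) • v) 1 := by
  induction i using Int.induction_on with
  | zero => simp [aff_one]
  | succ k hk =>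
    rw [zpow_add_one, hk, translation_mul]
    push_cast
    rw [add_smul, one_smul]
  | pred k hk =>
    rw [zpow_sub_one, hk, translation_inv, translation_mul]
    push_cast
    rw [sub_smul, one_smul, sub_eq_add_neg]

theorem linear_conj (A : SL2.S2 (ZMod p)) (v : Fin 2 → ZMod p) :
    aff 0 A * aff v 1 * (aff 0 A)⁻¹ = aff ((A : Matrix (Fin 2) (Fin 2) (ZMod p)).mulVec v) 1 := by
  rw [mul_inv_eq_iff_eq_mul, aff_mul, aff_mul]
  simp

/-- The section `Qd(p)` gives a natural pair on a `p`-subgroup. -/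
theorem exists_qdPair_of_involves [Finite G] (h : Involves ↥(Cfsg.qd p) G) :
    ∃ R : Subgroup G, IsPGroup p R ∧ QdPair p R := by
  obtain ⟨H, θ, hθ⟩ := EvenLocal.exists_surjective_of_involves h
  haveI : Finite (Matrix.SpecialLinearGroup (Fin 3) (ZMod p)) := Subtype.finite
  let Tr : Subgroup ↥(Cfsg.qd p) :=
    { carrier := {M | ∃ v, (M : Matrix.SpecialLinearGroup (Fin 3) (ZMod p)) = aff v 1}
      one_mem' := ⟨0, aff_one.symm⟩
      mul_mem' := by
        rintro x y ⟨v, hv⟩ ⟨w, hw⟩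
        exact ⟨v + w, by rw [Subgroup.coe_mul, hv, hw, translation_mul]⟩
      inv_mem' := by
        rintro x ⟨v, hv⟩
        exact ⟨-v, by rw [Subgroup.coe_inv, hv, translation_inv]⟩ }
  haveI : Tr.Normal := by
    refine ⟨?_⟩
    rintro x ⟨v, hv⟩ g
    obtain ⟨w, A, hg⟩ := qd_eq_aff g.2
    refine ⟨(A : Matrix (Fin 2) (Fin 2) (ZMod p)).mulVec v, ?_⟩
    rw [Subgroup.coe_mul, Subgroup.coe_mul, Subgroup.coe_inv, hv, hg, mul_inv_eq_iff_eq_mul,
      aff_mul, aff_mul]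
    simp [add_comm]
  have hTr : IsPGroup p Tr := by
    rintro ⟨x, v, hv⟩
    refine ⟨1, Subtype.ext (Subtype.ext ?_)⟩
    rw [pow_one, Subgroup.coe_pow, Subgroup.coe_pow, hv, ← zpow_natCast, translation_zpow]
    simp [aff_one]
  set U := Tr.comap θ with hU
  obtain ⟨T⟩ : Nonempty (Sylow p U) := inferInstance
  have hfr := T.normalizer_sup_eq_top
  set TH : Subgroup H := (T : Subgroup U).map U.subtype with hTH
  -- the normalizer of `TH` maps onto the quotient by the translations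
  have hTsurj : ∀ x ∈ Tr, ∃ t ∈ TH, θ t = x := by
    let θU : U →* Tr := (θ.comp U.subtype).codRestrict Tr fun y => y.2
    have hθU : Function.Surjective θU := fun x => by
      obtain ⟨y, hy⟩ := hθ x
      exact ⟨⟨y, show θ y ∈ Tr by rw [hy]; exact x.2⟩, Subtype.ext hy⟩
    intro x hx
    have htop : (T : Subgroup U).map θU = ⊤ := by
      have hnd : ¬ p ∣ ((T : Subgroup U).map θU).index := fun hd =>
        T.not_dvd_index (hd.trans (Subgroup.index_map_dvd _ hθU))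
      obtain ⟨k, hk⟩ := hTr.index ((T : Subgroup U).map θU)
      rcases Nat.eq_zero_or_pos k with rfl | hk0
      · exact Subgroup.index_eq_one.1 (by simpa using hk)
      · exact absurd (hk ▸ dvd_pow_self p hk0.ne') hnd
    obtain ⟨t, ht, hte⟩ := (Subgroup.mem_map.1 (htop ▸ Subgroup.mem_top (⟨x, hx⟩ : Tr)))
    exact ⟨t, ⟨t, ht, rfl⟩, congrArg Subtype.val hte⟩
  have hN : ∀ q : ↥(Cfsg.qd p), ∃ n : H, n ∈ Subgroup.normalizer (TH : Set H) ∧ θ n = q := by
    intro q
    obtain ⟨x, hx⟩ := hθ q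
    have hxm : x ∈ Subgroup.normalizer (TH : Set H) ⊔ U := by
      rw [hTH, hfr]; exact Subgroup.mem_top _
    obtain ⟨n, hn, d, hd, hnd⟩ := Subgroup.mem_sup_of_normal_right.1 hxm
    obtain ⟨t, ht, hte⟩ := hTsurj _ hd
    exact ⟨n * t, mul_mem hn (Subgroup.le_normalizer ht), by rw [map_mul, hte, ← map_mul, hnd, hx]⟩
  let e0 : Fin 2 → ZMod p := ![1, 0]
  let e1 : Fin 2 → ZMod p := ![0, 1]
  let uM : SL2.S2 (ZMod p) := ⟨!![1, 1; 0, 1], by simp [Matrix.det_fin_two_of]⟩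
  let lM : SL2.S2 (ZMod p) := ⟨!![1, 0; 1, 1], by simp [Matrix.det_fin_two_of]⟩
  obtain ⟨a, haT, ha⟩ := hTsurj ⟨aff e0 1, aff_mem_qd _ _⟩ ⟨e0, rfl⟩
  obtain ⟨b, hbT, hb⟩ := hTsurj ⟨aff e1 1, aff_mem_qd _ _⟩ ⟨e1, rfl⟩
  obtain ⟨u, huT, hu⟩ := hN ⟨aff 0 uM, aff_mem_qd _ _⟩
  obtain ⟨l, hlT, hl⟩ := hN ⟨aff 0 lM, aff_mem_qd _ _⟩
  set R := TH.map H.subtype with hR
  set W0 := (TH ⊓ θ.ker).map H.subtype with hW0
  have hmemW : ∀ x : H, (x : G) ∈ W0 ↔ x ∈ TH ∧ θ x = 1 := fun x => by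
    rw [hW0]
    exact Subgroup.mem_map_iff_mem H.subtype_injective
  have hnR : ∀ x : H, x ∈ Subgroup.normalizer (TH : Set H) →
      (x : G) ∈ Subgroup.normalizer (R : Set G) ∧ (x : G) ∈ Subgroup.normalizer (W0 : Set G) := by
    intro x hx
    constructor
    · refine Stability.mem_normalizer_of_conj_mem ?_
      rintro _ ⟨y, hy, rfl⟩
      exact ⟨x * y * x⁻¹, (Subgroup.mem_normalizer_iff.1 hx y).1 hy, rfl⟩
    · refine Stability.mem_normalizer_of_conj_mem ?_
      rintro _ ⟨y, hy, rfl⟩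
      refine ⟨x * y * x⁻¹, ⟨(Subgroup.mem_normalizer_iff.1 hx y).1 hy.1, ?_⟩, rfl⟩
      exact θ.normal_ker.conj_mem y hy.2 x
  have hkey : ∀ x : H, x ∈ TH → ∀ v, (θ x : Matrix.SpecialLinearGroup (Fin 3) (ZMod p)) = aff v 1 →
      v = 0 → (x : G) ∈ W0 := by
    intro x hx v hv h0
    rw [hmemW]
    exact ⟨hx, Subtype.ext (by rw [hv, h0, aff_one]; rfl)⟩
  have ha' : (θ a : Matrix.SpecialLinearGroup (Fin 3) (ZMod p)) = aff e0 1 := by rw [ha]
  have hb' : (θ b : Matrix.SpecialLinearGroup (Fin 3) (ZMod p)) = aff e1 1 := by rw [hb]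
  have hu' : (θ u : Matrix.SpecialLinearGroup (Fin 3) (ZMod p)) = aff 0 uM := by rw [hu]
  have hl' : (θ l : Matrix.SpecialLinearGroup (Fin 3) (ZMod p)) = aff 0 lM := by rw [hl]
  have hconj : ∀ x : H, x ∈ Subgroup.normalizer (TH : Set H) → ∀ y ∈ TH, x * y * x⁻¹ ∈ TH :=
    fun x hx y hy => (Subgroup.mem_normalizer_iff.1 hx y).1 hy
  refine ⟨R, (T.isPGroup'.map U.subtype).map H.subtype, W0, a, b, u, l,
    Subgroup.map_mono inf_le_left, ⟨a, haT, rfl⟩, ⟨b, hbT, rfl⟩,
    (hnR a (Subgroup.le_normalizer haT)).2, (hnR b (Subgroup.le_normalizer hbT)).2,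
    (hnR u huT).1, (hnR u huT).2, (hnR l hlT).1, (hnR l hlT).2, ?_, ?_, ?_, ?_, ?_, ?_, ?_, ?_⟩
  · refine hkey (a * b * a⁻¹ * b⁻¹)
      (mul_mem (mul_mem (mul_mem haT hbT) (inv_mem haT)) (inv_mem hbT)) 0 ?_ rfl
    simp only [map_mul, map_inv, Subgroup.coe_mul, Subgroup.coe_inv, ha', hb', translation_mul,
      translation_inv]
    congr 1
    abel
  · refine hkey (a ^ p) (pow_mem haT p) 0 ?_ rfl
    rw [map_pow, Subgroup.coe_pow, ha', ← zpow_natCast, translation_zpow]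
    simp
  · refine hkey (b ^ p) (pow_mem hbT p) 0 ?_ rfl
    rw [map_pow, Subgroup.coe_pow, hb', ← zpow_natCast, translation_zpow]
    simp
  · refine hkey (u * a * u⁻¹ * a⁻¹) (mul_mem (hconj u huT a haT) (inv_mem haT)) 0 ?_ rfl
    simp only [map_mul, map_inv, Subgroup.coe_mul, Subgroup.coe_inv, ha', hu', linear_conj,
      translation_inv, translation_mul]
    congr 1
    funext i
    fin_cases i <;> simp [uM, e0, Matrix.mulVec, dotProduct, Fin.sum_univ_two]
  · refine hkey (u * b * u⁻¹ * (a * b)⁻¹)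
      (mul_mem (hconj u huT b hbT) (inv_mem (mul_mem haT hbT))) 0 ?_ rfl
    simp only [map_mul, map_inv, Subgroup.coe_mul, Subgroup.coe_inv, ha', hb', hu', linear_conj,
      translation_inv, translation_mul]
    congr 1
    funext i
    fin_cases i <;> simp [uM, e0, e1, Matrix.mulVec, dotProduct, Fin.sum_univ_two]
  · refine hkey (l * a * l⁻¹ * (a * b)⁻¹)
      (mul_mem (hconj l hlT a haT) (inv_mem (mul_mem haT hbT))) 0 ?_ rfl
    simp only [map_mul, map_inv, Subgroup.coe_mul, Subgroup.coe_inv, ha', hb', hl', linear_conj,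
      translation_inv, translation_mul]
    congr 1
    funext i
    fin_cases i <;> simp [lM, e0, e1, Matrix.mulVec, dotProduct, Fin.sum_univ_two]
  · refine hkey (l * b * l⁻¹ * b⁻¹) (mul_mem (hconj l hlT b hbT) (inv_mem hbT)) 0 ?_ rfl
    simp only [map_mul, map_inv, Subgroup.coe_mul, Subgroup.coe_inv, hb', hl', linear_conj,
      translation_inv, translation_mul]
    congr 1
    funext i
    fin_cases i <;> simp [lM, e1, Matrix.mulVec, dotProduct, Fin.sum_univ_two]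
  · intro i j hij
    have h1 := ((hmemW (a ^ i * b ^ j)).1 (by simpa using hij)).2
    have h2 := congrArg Subtype.val h1
    rw [map_mul, map_zpow, map_zpow, Subgroup.coe_mul, Subgroup.coe_zpow, Subgroup.coe_zpow, ha',
      hb', translation_zpow, translation_zpow, translation_mul] at h2
    have h3 := aff_apply_inj (h2.trans aff_one.symm)
    have i0 := congrFun h3 0
    have i1 := congrFun h3 1
    simp [e0, e1] at i0 i1
    exact ⟨(ZMod.intCast_zmod_eq_zero_iff_dvd i p).1 i0, (ZMod.intCast_zmod_eq_zero_iff_dvd j p).1 i1⟩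

/-- A natural pair lies on a centric `p`-subgroup. -/
theorem exists_centric_qdPair [Finite G] (h : ∃ R : Subgroup G, IsPGroup p R ∧ QdPair p R) :
    ∃ R : Subgroup G, IsPGroup p R ∧ QdPair p R ∧
      ∀ x ∈ Subgroup.centralizer (R : Set G), (∃ k, x ^ p ^ k = 1) → x ∈ R := by
  classical
  obtain ⟨R, ⟨hRp, hR⟩, hmax⟩ := Set.exists_max_image {R : Subgroup G | IsPGroup p R ∧ QdPair p R}
    (fun R => Nat.card R) (Set.toFinite _) h
  refine ⟨R, hRp, hR, fun x hx hxp => ?_⟩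
  set C := Subgroup.centralizer (R : Set G) with hC
  have hxz : IsPGroup p (Subgroup.zpowers (⟨x, hx⟩ : C)) := by
    rintro ⟨_, i, rfl⟩
    obtain ⟨k, hk⟩ := hxp
    refine ⟨k, Subtype.ext (Subtype.ext ?_)⟩
    show (x ^ i) ^ p ^ k = 1
    rw [← zpow_natCast, ← zpow_mul, mul_comm, zpow_mul, zpow_natCast, hk, one_zpow]
  obtain ⟨D, hD⟩ := hxz.exists_le_sylow
  set D' : Subgroup G := (D : Subgroup C).map C.subtype with hD'
  have hxD : x ∈ D' := ⟨_, hD (Subgroup.mem_zpowers _), rfl⟩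
  have hDn : ∀ d ∈ D', d ∈ Subgroup.normalizer (R : Set G) := by
    rintro _ ⟨d, -, rfl⟩
    exact Subgroup.centralizer_le_normalizer _ d.2
  obtain ⟨W0, a, b, u, l, hW, ha, hb, haW, hbW, huR, huW, hlR, hlW, c1, c2, c3, c4, c5, c6, c7, hind⟩ :=
    hR
  -- elements of `N(R)` can be adjusted by the centralizer to normalize `D'`
  have hadj : ∀ g ∈ Subgroup.normalizer (R : Set G), ∃ c ∈ C,
      c * g ∈ Subgroup.normalizer (D' : Set G) := by
    intro g hg
    have hgC : g ∈ Subgroup.normalizer (C : Set G) := by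
      refine Stability.mem_normalizer_of_conj_mem fun c hc => ?_
      rw [hC, Subgroup.mem_centralizer_iff] at hc ⊢
      intro r hr
      have hr' : g⁻¹ * r * g ∈ R := by
        have := (Subgroup.mem_normalizer_iff.1 hg (g⁻¹ * r * g)).2
        exact this (by rw [show g * (g⁻¹ * r * g) * g⁻¹ = r by group]; exact hr)
      calc r * (g * c * g⁻¹) = g * ((g⁻¹ * r * g) * c) * g⁻¹ := by group
        _ = g * (c * (g⁻¹ * r * g)) * g⁻¹ := by rw [hc _ hr']
        _ = g * c * g⁻¹ * r := by group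
    let φ : MulAut C :=
      { toFun := fun c => ⟨g * c * g⁻¹, (Subgroup.mem_normalizer_iff.1 hgC c).1 c.2⟩
        invFun := fun c => ⟨g⁻¹ * c * g,
          (Subgroup.mem_normalizer_iff.1 hgC _).2 (by
            rw [show g * (g⁻¹ * (c : G) * g) * g⁻¹ = c by group]; exact c.2)⟩
        left_inv := fun c => Subtype.ext (by simp [mul_assoc])
        right_inv := fun c => Subtype.ext (by simp [mul_assoc])
        map_mul' := fun c d => Subtype.ext (by simp [mul_assoc]) }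
    obtain ⟨c, hc⟩ := MulAction.exists_smul_eq C (φ • D) D
    refine ⟨c, c.2, Stability.mem_normalizer_of_conj_mem ?_⟩
    rintro _ ⟨d, hd, rfl⟩
    have hmem : c * φ d * c⁻¹ ∈ (D : Subgroup C) := by
      have : c * φ d * c⁻¹ ∈ ((c • φ • D : Sylow p C) : Subgroup C) :=
        ⟨φ d, ⟨d, hd, rfl⟩, rfl⟩
      rwa [hc] at this
    refine ⟨_, hmem, ?_⟩
    show (c : G) * (g * d * g⁻¹) * (c : G)⁻¹ = (c : G) * g * d * ((c : G) * g)⁻¹
    group
  obtain ⟨cu, hcu, hu⟩ := hadj u huR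
  obtain ⟨cl, hcl, hl⟩ := hadj l hlR
  have hfix : ∀ c ∈ C, ∀ r ∈ R, c * r * c⁻¹ = r := fun c hc r hr => by
    rw [← Subgroup.mem_centralizer_iff.1 hc r hr, mul_inv_cancel_right]
  have hCW : C ≤ Subgroup.normalizer (W0 : Set G) := fun c hc => by
    refine Stability.mem_normalizer_of_conj_mem fun w hw => ?_
    rw [hfix c hc w (hW hw)]; exact hw
  have hsame : ∀ g ∈ Subgroup.normalizer (R : Set G), ∀ c ∈ C, ∀ r ∈ R,
      c * g * r * (c * g)⁻¹ = g * r * g⁻¹ := fun g hg c hc r hr => by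
    rw [show c * g * r * (c * g)⁻¹ = c * (g * r * g⁻¹) * c⁻¹ by group,
      hfix c hc _ ((Subgroup.mem_normalizer_iff.1 hg r).1 hr)]
  have hRD : IsPGroup p (R ⊔ D' : Subgroup G) :=
    hRp.to_sup_of_normal_left' (D.isPGroup'.map C.subtype) fun d hd => hDn d hd
  have hnsup : ∀ g ∈ Subgroup.normalizer (R : Set G), g ∈ Subgroup.normalizer (D' : Set G) →
      g ∈ Subgroup.normalizer ((R ⊔ D' : Subgroup G) : Set G) := by
    intro g h1 h2
    rw [Subgroup.mem_normalizer_iff_map_conj_eq] at h1 h2 ⊢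
    rw [Subgroup.map_sup, h1, h2]
  have hle : R ⊔ D' ≤ R := by
    refine (Subgroup.eq_of_le_of_card_ge le_sup_left (hmax (R ⊔ D') ⟨hRD, W0, a, b, cu * u, cl * l,
      hW.trans le_sup_left, Subgroup.mem_sup_left ha, Subgroup.mem_sup_left hb, haW, hbW,
      hnsup _ (mul_mem (Subgroup.centralizer_le_normalizer _ hcu) huR) hu, mul_mem (hCW hcu) huW,
      hnsup _ (mul_mem (Subgroup.centralizer_le_normalizer _ hcl) hlR) hl, mul_mem (hCW hcl) hlW,
      c1, c2, c3, ?_, ?_, ?_, ?_, hind⟩)).ge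
    · rw [hsame u huR cu hcu a ha]; exact c4
    · rw [hsame u huR cu hcu b hb]; exact c5
    · rw [hsame l hlR cl hcl a ha]; exact c6
    · rw [hsame l hlR cl hcl b hb]; exact c7
  exact hle (Subgroup.mem_sup_right hxD)

end Cfsg.Agent.FusionQd
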